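import Cfsg.Agent.Lib.Helper32.Scn.Tools

/-!
# S1904 package [Mt] (helper75): `lemMtools : LemMtools`
-/

set_option autoImplicit false

universe u

namespace Cfsg.Agent.Lib.Helper75.Scn

open Cfsg.Agent.Lib.Helper32.Scn

section
variable {X : Type u} [Group X]

/-- In an abelian normal subgroup, `m ↦ g m g⁻¹ m⁻¹` commutes with powers. -/
theorem cc_pow (M : Subgroup X) (hM : M.Normal) (hab : ∀ a ∈ M, ∀ b ∈ M, a * b = b * a)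
    (g : X) {m : X} (hm : m ∈ M) (j : ℕ) :
    (g * m * g⁻¹ * m⁻¹) ^ j = g * m ^ j * g⁻¹ * (m ^ j)⁻¹ := by
  have hc : Commute (g * m * g⁻¹) m⁻¹ := hab _ (hM.conj_mem m hm g) _ (M.inv_mem hm)
  rw [hc.mul_pow, conj_pow, inv_pow]

/-- In an abelian normal subgroup, `m ↦ g m g⁻¹ m⁻¹` is multiplicative. -/
theorem cc_mul (M : Subgroup X) (hM : M.Normal) (hab : ∀ a ∈ M, ∀ b ∈ M, a * b = b * a)
    (g : X) {a b : X} (ha : a ∈ M) (hb : b ∈ M) :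
    g * (a * b) * g⁻¹ * (a * b)⁻¹ = (g * a * g⁻¹ * a⁻¹) * (g * b * g⁻¹ * b⁻¹) := by
  have hcb : g * b * g⁻¹ * b⁻¹ ∈ M := M.mul_mem (hM.conj_mem b hb g) (M.inv_mem hb)
  calc g * (a * b) * g⁻¹ * (a * b)⁻¹ = g * a * g⁻¹ * ((g * b * g⁻¹ * b⁻¹) * a⁻¹) := by group
    _ = g * a * g⁻¹ * (a⁻¹ * (g * b * g⁻¹ * b⁻¹)) := by rw [hab _ hcb _ (M.inv_mem ha)]
    _ = (g * a * g⁻¹ * a⁻¹) * (g * b * g⁻¹ * b⁻¹) := by group

end

theorem lemMtools : LemMtools.{u} := by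
  intro X _ _ A φ M n h hcen
  have hM : M.Normal := h.c.nrm
  have hab := h.c.ab
  have hne : M ≠ ⊥ := by
    intro hbot
    obtain ⟨m, hm, hmV⟩ := h.c.ne
    rw [hbot, Subgroup.mem_bot] at hm
    exact hmV (hm ▸ (omZ X).one_mem)
  have hV : ∀ b ∈ M, b * b = 1 → b ∈ omZ X := (h.c.b.abel M hM h.c.inv hab hne).2
  have hccM : ∀ (g : X) {m : X}, m ∈ M → g * m * g⁻¹ * m⁻¹ ∈ M :=
    fun g m hm => M.mul_mem (hM.conj_mem m hm g) (M.inv_mem hm)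
  -- low
  have hlow : ∀ (g : X) (k : ℕ), ∀ m ∈ M, m ^ (2 ^ (k + 1)) = 1 →
      (g * m * g⁻¹ * m⁻¹) ^ (2 ^ k) = 1 := by
    intro g k m hm hpow
    rw [cc_pow M hM hab g hm]
    have hz : m ^ (2 ^ k) ∈ omZ X := by
      apply hV _ (M.pow_mem hm _)
      rw [← pow_add, ← two_mul, ← pow_succ']
      exact hpow
    rw [omZ_comm hz g]; group
  have hn : n - 1 + 1 = n := by have := h.n2; omega
  have hlvn : ∀ x : X, Lv M (n - 1) x := by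
    intro x m hm
    apply hlow x (n - 1) m hm
    rw [hn]; exact h.exp m hm
  have hsqc : ∀ g : X, ∀ m ∈ M, ∃ u ∈ M, g * m * g⁻¹ * m⁻¹ = u * u := by
    intro g m hm
    exact h.sqr _ (hccM g hm) (hlvn g m hm)
  refine ⟨hcen, hsqc, hlow, ?_, ?_, hlvn⟩
  · -- c1
    intro k hk hyp x hx g
    obtain ⟨j, rfl⟩ : ∃ j, k = j + 1 := ⟨k - 1, by omega⟩
    rw [Nat.add_sub_cancel] at hyp
    apply hyp
    intro m' hm'
    obtain ⟨m, hm, rfl⟩ : ∃ m ∈ M, m' = (x * g) * m * (x * g)⁻¹ := by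
      refine ⟨(x * g)⁻¹ * m' * (x * g), ?_, by group⟩
      have := hM.conj_mem m' hm' (x * g)⁻¹
      simpa using this
    have ha : x * m * x⁻¹ * m⁻¹ ∈ M := hccM x hm
    have hb : g * m * g⁻¹ * m⁻¹ ∈ M := hccM g hm
    obtain ⟨a, hadef⟩ : ∃ a, a = x * m * x⁻¹ * m⁻¹ := ⟨_, rfl⟩
    obtain ⟨b, hbdef⟩ : ∃ b, b = g * m * g⁻¹ * m⁻¹ := ⟨_, rfl⟩
    rw [← hadef] at ha
    rw [← hbdef] at hb
    have hAM : g * a * g⁻¹ * a⁻¹ ∈ M := hccM g ha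
    have hCM : x * b * x⁻¹ * b⁻¹ ∈ M := hccM x hb
    have e1 : (g * x * g⁻¹ * x⁻¹) * ((x * g) * m * (x * g)⁻¹) * (g * x * g⁻¹ * x⁻¹)⁻¹
        = (g * a * g⁻¹ * a⁻¹) * (a * (b * m)) := by
      rw [hadef, hbdef]; group
    have e2 : (x * g) * m * (x * g)⁻¹ = (x * b * x⁻¹ * b⁻¹) * (a * (b * m)) := by
      have : (x * g) * m * (x * g)⁻¹ = (x * b * x⁻¹ * b⁻¹) * (b * (a * m)) := by
        rw [hadef, hbdef]; group
      rw [this, ← mul_assoc b a m, hab b hb a ha, mul_assoc a b m]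
    have e3 : (g * x * g⁻¹ * x⁻¹) * ((x * g) * m * (x * g)⁻¹) * (g * x * g⁻¹ * x⁻¹)⁻¹ *
        ((x * g) * m * (x * g)⁻¹)⁻¹ = (g * a * g⁻¹ * a⁻¹) * (x * b * x⁻¹ * b⁻¹)⁻¹ := by
      rw [e1, e2]
      group
    rw [e3]
    have hcomm : Commute (g * a * g⁻¹ * a⁻¹) (x * b * x⁻¹ * b⁻¹)⁻¹ :=
      hab _ hAM _ (M.inv_mem hCM)
    rw [hcomm.mul_pow]
    have hA1 : (g * a * g⁻¹ * a⁻¹) ^ (2 ^ j) = 1 := by
      apply hlow g j a ha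
      rw [hadef]; exact hx m hm
    have hC1 : (x * b * x⁻¹ * b⁻¹) ^ (2 ^ j) = 1 := by
      obtain ⟨u, hu, hbu⟩ := hsqc g m hm
      rw [← hbdef] at hbu
      rw [hbu, cc_mul M hM hab x hu hu, ← pow_two (x * u * x⁻¹ * u⁻¹), ← pow_mul, ← pow_succ']
      exact hx u hu
    rw [hA1, inv_pow, hC1]; simp
  · -- c2
    intro k hk hyp x hx
    obtain ⟨j, rfl⟩ : ∃ j, k = j + 1 := ⟨k - 1, by omega⟩
    rw [Nat.add_sub_cancel] at hyp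
    apply hyp
    intro m hm
    have ha : x * m * x⁻¹ * m⁻¹ ∈ M := hccM x hm
    obtain ⟨a, hadef⟩ : ∃ a, a = x * m * x⁻¹ * m⁻¹ := ⟨_, rfl⟩
    rw [← hadef] at ha
    have e : (x * x) * m * (x * x)⁻¹ * m⁻¹ = (x * a * x⁻¹ * a⁻¹) * (a * a) := by
      rw [hadef]; group
    rw [e]
    have hcomm : Commute (x * a * x⁻¹ * a⁻¹) (a * a) := hab _ (hccM x ha) _ (M.mul_mem ha ha)
    rw [hcomm.mul_pow]
    have ha1 : a ^ (2 ^ (j + 1)) = 1 := by rw [hadef]; exact hx m hm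
    have h1 : (x * a * x⁻¹ * a⁻¹) ^ (2 ^ j) = 1 := hlow x j a ha ha1
    have h2 : (a * a) ^ (2 ^ j) = 1 := by
      rw [← pow_two a, ← pow_mul, ← pow_succ']; exact ha1
    rw [h1, h2, one_mul]

end Cfsg.Agent.Lib.Helper75.Scn
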