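import Cfsg.Agent.Lib.Helper32.Scn.Tools

/-!
# S1904 package [Wc] (helper75): `lemWcard (hB : LemBound) : LemWcard`
-/

set_option autoImplicit false

universe u

namespace Cfsg.Agent.Lib.Helper75.Scn

open Cfsg.Agent.Lib.Helper32.Scn

theorem mul_mem_of_card_le_two_mul {G : Type*} [Group G] [Finite G] (Y Z : Subgroup G)
    (hYZ : Y ≤ Z) (hcard : Nat.card ↥Z ≤ 2 * Nat.card ↥Y) {a b : G} (ha : a ∈ Z) (hb : b ∈ Z)
    (haY : a ∉ Y) (hbY : b ∉ Y) : a * b ∈ Y := by
  have h1 : Nat.card ↥(Y.subgroupOf Z) = Nat.card ↥Y :=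
    Nat.card_congr (Subgroup.subgroupOfEquivOfLe hYZ).toEquiv
  have h2 := Subgroup.card_mul_index (Y.subgroupOf Z)
  have hpos : 0 < Nat.card ↥Y := Nat.card_pos
  have h3 : (Y.subgroupOf Z).index ≠ 0 := Subgroup.index_ne_zero_of_finite
  have h4 : (Y.subgroupOf Z).index ≠ 1 := by
    intro h
    rw [Subgroup.index_eq_one] at h
    have : (⟨a, ha⟩ : ↥Z) ∈ Y.subgroupOf Z := h ▸ Subgroup.mem_top _
    exact haY (Subgroup.mem_subgroupOf.mp this)
  have h5 : (Y.subgroupOf Z).index = 2 := by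
    have : (Y.subgroupOf Z).index ≤ 2 := by
      by_contra hc
      push Not at hc
      have h6 : Nat.card ↥Y * 3 ≤ Nat.card ↥Y * (Y.subgroupOf Z).index :=
        Nat.mul_le_mul_left _ hc
      rw [h1] at h2
      omega
    omega
  have h6 := (Subgroup.mul_mem_iff_of_index_two h5 (a := (⟨a, ha⟩ : ↥Z)) (b := ⟨b, hb⟩)).mpr
    ⟨fun h => absurd (Subgroup.mem_subgroupOf.mp h) haY,
      fun h => absurd (Subgroup.mem_subgroupOf.mp h) hbY⟩
  exact Subgroup.mem_subgroupOf.mp h6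

theorem mem_inf_centralizer_singleton {G : Type*} [Group G] {H : Subgroup G} {b g : G} :
    g ∈ H ⊓ Subgroup.centralizer {b} ↔ g ∈ H ∧ b * g = g * b := by
  simp [Subgroup.mem_inf, Subgroup.mem_centralizer_iff]

section
variable {X : Type u} [Group X]

theorem comm_eq_one_iff {a d : X} : a * d * a⁻¹ * d⁻¹ = 1 ↔ a * d = d * a := by
  rw [mul_inv_eq_one, mul_inv_eq_iff_eq_mul]

/-- second-variable multiplicativity of the commutator when `[a, d']` is central. -/
theorem comm_mul_right {a d d' : X} (h : a * d' * a⁻¹ * d'⁻¹ ∈ omZ X) :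
    a * (d * d') * a⁻¹ * (d * d')⁻¹ = (a * d * a⁻¹ * d⁻¹) * (a * d' * a⁻¹ * d'⁻¹) := by
  calc a * (d * d') * a⁻¹ * (d * d')⁻¹
      = (a * d * a⁻¹ * d⁻¹) * (d * (a * d' * a⁻¹ * d'⁻¹)) * d⁻¹ := by group
    _ = (a * d * a⁻¹ * d⁻¹) * ((a * d' * a⁻¹ * d'⁻¹) * d) * d⁻¹ := by rw [omZ_comm h d]
    _ = (a * d * a⁻¹ * d⁻¹) * (a * d' * a⁻¹ * d'⁻¹) := by group

/-- first-variable multiplicativity of the commutator when `[a', b]` is central. -/
theorem comm_mul_left {a a' b : X} (h : a' * b * a'⁻¹ * b⁻¹ ∈ omZ X) :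
    (a * a') * b * (a * a')⁻¹ * b⁻¹ = (a' * b * a'⁻¹ * b⁻¹) * (a * b * a⁻¹ * b⁻¹) := by
  calc (a * a') * b * (a * a')⁻¹ * b⁻¹
      = (a * (a' * b * a'⁻¹ * b⁻¹)) * (b * a⁻¹ * b⁻¹) := by group
    _ = ((a' * b * a'⁻¹ * b⁻¹) * a) * (b * a⁻¹ * b⁻¹) := by rw [omZ_comm h a]
    _ = (a' * b * a'⁻¹ * b⁻¹) * (a * b * a⁻¹ * b⁻¹) := by group

end

theorem lemWcard (hB : LemBound.{u}) : LemWcard.{u} := by
  intro X _ _ A φ h hZ
  have : Fact (Nat.Prime 2) := ⟨Nat.prime_two⟩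
  have hVW : omZ X ≤ bigW X := omZ_le_bigW
  have hVc : Nat.card (omZ X) = 4 := h.Vcard
  have hinvW : ∀ w ∈ bigW X, w * w = 1 → w ∈ omZ X :=
    fun w hw hw2 => h.inv w hw2 (mem_bigW.mp hw).2
  have hcomm : ∀ w ∈ bigW X, ∀ g : X, g * w * g⁻¹ * w⁻¹ ∈ omZ X :=
    fun w hw g => (mem_bigW.mp hw).2 g
  have hle : Nat.card (bigW X) ≤ 64 :=
    hB (bigW X) hVc hVW (fun w hw => (mem_bigW.mp hw).1)
      (fun w _ w' hw' => (mem_bigW.mp hw').2 w) hinvW
  obtain ⟨j, hj⟩ := (h.hyp.two.to_subgroup (bigW X)).exists_card_eq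
  have hdvd : 4 ∣ Nat.card (bigW X) := by
    rw [← hVc]; exact Subgroup.card_dvd_of_le hVW
  -- an element of `W ∖ V`
  obtain ⟨w₀, hw₀W, hw₀V⟩ : ∃ w ∈ bigW X, w ∉ omZ X := by
    obtain ⟨a, b, hab⟩ := h.hyp.na
    have hnt : Nontrivial (X ⧸ omZ X) := by
      refine ⟨⟨(QuotientGroup.mk a : X ⧸ omZ X), 1, ?_⟩⟩
      intro hc
      rw [QuotientGroup.eq_one_iff] at hc
      exact hab (omZ_comm hc b).symm
    have hpQ : IsPGroup 2 (X ⧸ omZ X) := h.hyp.two.to_quotient (omZ X)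
    have hcnt : Nontrivial (Subgroup.center (X ⧸ omZ X)) := hpQ.center_nontrivial
    have h2 : 2 ∣ Nat.card (Subgroup.center (X ⧸ omZ X)) := by
      rcases (hpQ.to_subgroup (Subgroup.center _)).card_eq_or_dvd with h1 | h1
      · exfalso
        have := Finite.one_lt_card (α := Subgroup.center (X ⧸ omZ X))
        omega
      · exact h1
    obtain ⟨c, hc⟩ := exists_prime_orderOf_dvd_card' 2 h2
    obtain ⟨w, hw⟩ := QuotientGroup.mk_surjective (c : X ⧸ omZ X)
    have hc1 : (c : X ⧸ omZ X) ≠ 1 := by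
      intro h1
      have : c = 1 := Subtype.ext h1
      rw [this, orderOf_one] at hc
      norm_num at hc
    have hc2 : (c : X ⧸ omZ X) * c = 1 := by
      have := pow_orderOf_eq_one c
      rw [hc, pow_two] at this
      exact congrArg Subtype.val this
    refine ⟨w, ?_, ?_⟩
    · rw [mem_bigW]
      refine ⟨?_, fun g => ?_⟩
      · rw [← QuotientGroup.eq_one_iff, QuotientGroup.mk_mul, hw]; exact hc2
      · rw [← QuotientGroup.eq_one_iff]
        simp only [QuotientGroup.mk_mul, QuotientGroup.mk_inv, hw]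
        have := Subgroup.mem_center_iff.mp c.2 (QuotientGroup.mk g)
        rw [this]; group
    · intro hwV
      apply hc1
      rw [← hw]; exact (QuotientGroup.eq_one_iff w).mpr hwV
  -- the three excluded orders
  have hne4 : Nat.card (bigW X) ≠ 4 := by
    intro h4
    have := Subgroup.eq_of_le_of_card_ge hVW (by rw [h4, hVc])
    exact hw₀V (this ▸ hw₀W)
  have hne8 : Nat.card (bigW X) ≠ 8 := by
    intro h8
    have hcen : ∀ w' ∈ bigW X, w₀ * w' = w' * w₀ := by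
      intro w' hw'
      by_cases hw'V : w' ∈ omZ X
      · exact omZ_comm hw'V w₀
      · have hv : w₀ * w' ∈ omZ X :=
          mul_mem_of_card_le_two_mul (omZ X) (bigW X) hVW (by rw [h8, hVc]) hw₀W hw' hw₀V hw'V
        have h1 := omZ_comm hv w₀
        have : w₀ * (w₀ * w') = w₀ * (w' * w₀) := by rw [h1]; group
        exact mul_left_cancel this
    exact hw₀V (hZ w₀ hw₀W hcen)
  have hne16 : Nat.card (bigW X) ≠ 16 := by
    intro h16
    -- (K1): the non-trivial commutators with a fixed `a ∈ W` are all equal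
    have K1 : ∀ a ∈ bigW X, ∀ d ∈ bigW X, ∀ d' ∈ bigW X, a * d * a⁻¹ * d⁻¹ ≠ 1 →
        a * d' * a⁻¹ * d'⁻¹ ≠ 1 → a * d * a⁻¹ * d⁻¹ = a * d' * a⁻¹ * d'⁻¹ := by
      intro a ha d hd d' hd' hne hne'
      have haV : a ∉ omZ X := by
        intro hc
        apply hne
        rw [comm_eq_one_iff]
        exact (omZ_comm hc d).symm
      have hVC : omZ X ≤ bigW X ⊓ Subgroup.centralizer {a} := fun v hv =>
        mem_inf_centralizer_singleton.mpr ⟨hVW hv, omZ_comm hv a⟩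
      have haC : a ∈ bigW X ⊓ Subgroup.centralizer {a} :=
        mem_inf_centralizer_singleton.mpr ⟨ha, rfl⟩
      have hC8 : 8 ≤ Nat.card ↥(bigW X ⊓ Subgroup.centralizer {a}) := by
        obtain ⟨i, hi⟩ := (h.hyp.two.to_subgroup (bigW X ⊓ Subgroup.centralizer {a})).exists_card_eq
        have hd4 : 4 ∣ Nat.card ↥(bigW X ⊓ Subgroup.centralizer {a}) := by
          rw [← hVc]; exact Subgroup.card_dvd_of_le hVC
        have hn4 : Nat.card ↥(bigW X ⊓ Subgroup.centralizer {a}) ≠ 4 := by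
          intro h4
          have := Subgroup.eq_of_le_of_card_ge hVC (by rw [h4, hVc])
          exact haV (this ▸ haC)
        rw [hi] at hd4 hn4 ⊢
        have hi3 : 3 ≤ i := by
          by_contra hc
          push Not at hc
          interval_cases i <;> simp_all
        calc 8 = 2 ^ 3 := by norm_num
          _ ≤ 2 ^ i := Nat.pow_le_pow_right (by norm_num) hi3
      have hdC : d ∉ bigW X ⊓ Subgroup.centralizer {a} := by
        intro hc
        exact hne (comm_eq_one_iff.mpr (mem_inf_centralizer_singleton.mp hc).2)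
      have hd'C : d' ∉ bigW X ⊓ Subgroup.centralizer {a} := by
        intro hc
        exact hne' (comm_eq_one_iff.mpr (mem_inf_centralizer_singleton.mp hc).2)
      have hprod : d * d' ∈ bigW X ⊓ Subgroup.centralizer {a} :=
        mul_mem_of_card_le_two_mul _ (bigW X) inf_le_left (by rw [h16]; omega) hd hd' hdC hd'C
      have h1 : a * (d * d') * a⁻¹ * (d * d')⁻¹ = 1 :=
        comm_eq_one_iff.mpr (mem_inf_centralizer_singleton.mp hprod).2
      rw [comm_mul_right (hcomm d' hd' a)] at h1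
      have h2 : a * d * a⁻¹ * d⁻¹ = (a * d' * a⁻¹ * d'⁻¹)⁻¹ := eq_inv_of_mul_eq_one_left h1
      rw [h2, omZ_inv (hcomm d' hd' a)]
    -- (K1'): same in the first variable
    have hswap : ∀ d ∈ bigW X, ∀ b : X, d * b * d⁻¹ * b⁻¹ = b * d * b⁻¹ * d⁻¹ := by
      intro d hd b
      have e : d * b * d⁻¹ * b⁻¹ = (b * d * b⁻¹ * d⁻¹)⁻¹ := by group
      rw [e, omZ_inv (hcomm d hd b)]
    have K1' : ∀ b ∈ bigW X, ∀ d ∈ bigW X, ∀ d' ∈ bigW X, d * b * d⁻¹ * b⁻¹ ≠ 1 →
        d' * b * d'⁻¹ * b⁻¹ ≠ 1 → d * b * d⁻¹ * b⁻¹ = d' * b * d'⁻¹ * b⁻¹ := by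
      intro b hb d hd d' hd' hne hne'
      rw [hswap d hd b] at hne ⊢
      rw [hswap d' hd' b] at hne' ⊢
      exact K1 b hb d hd d' hd' hne hne'
    obtain ⟨b, hbW, hab⟩ : ∃ b ∈ bigW X, w₀ * b ≠ b * w₀ := by
      by_contra hc
      push Not at hc
      exact hw₀V (hZ w₀ hw₀W hc)
    obtain ⟨c, hcdef⟩ : ∃ c, c = w₀ * b * w₀⁻¹ * b⁻¹ := ⟨_, rfl⟩
    have hc1 : c ≠ 1 := by
      rw [hcdef]; intro hc; exact hab (comm_eq_one_iff.mp hc)
    have hcV : c ∈ omZ X := by rw [hcdef]; exact hcomm b hbW w₀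
    have hφc : φ c = φ w₀ * φ b * (φ w₀)⁻¹ * (φ b)⁻¹ := by
      rw [hcdef]; simp only [map_mul, map_inv]
    have hφc1 : φ c ≠ 1 := h.phi_ne_one hc1
    have hφcc : φ c ≠ c := h.φV c hcV hc1
    have ha'W : φ w₀ ∈ bigW X := bigW_aut φ hw₀W
    have hb'W : φ b ∈ bigW X := bigW_aut φ hbW
    -- Step A
    have hA : w₀ * φ b * w₀⁻¹ * (φ b)⁻¹ = 1 := by
      by_contra hne
      have e1 := K1 w₀ hw₀W (φ b) hb'W b hbW hne (by rw [← hcdef]; exact hc1)
      have e2 := K1' (φ b) hb'W w₀ hw₀W (φ w₀) ha'W hne (by rw [← hφc]; exact hφc1)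
      rw [← hφc] at e2
      rw [← hcdef] at e1
      exact hφcc (e2.symm.trans e1)
    -- Step B
    have hBB : φ w₀ * b * (φ w₀)⁻¹ * b⁻¹ = 1 := by
      by_contra hne
      have e1 := K1 (φ w₀) ha'W b hbW (φ b) hb'W hne (by rw [← hφc]; exact hφc1)
      have e2 := K1' b hbW (φ w₀) ha'W w₀ hw₀W hne (by rw [← hcdef]; exact hc1)
      rw [← hφc] at e1
      rw [← hcdef] at e2
      exact hφcc (e1.symm.trans e2)
    -- Step C
    have huW : w₀ * φ w₀ ∈ bigW X := (bigW X).mul_mem hw₀W ha'W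
    have e1 : (w₀ * φ w₀) * b * (w₀ * φ w₀)⁻¹ * b⁻¹ = c := by
      rw [comm_mul_left (hcomm b hbW (φ w₀)), hBB, one_mul, hcdef]
    have e2 : (w₀ * φ w₀) * φ b * (w₀ * φ w₀)⁻¹ * (φ b)⁻¹ = φ c := by
      rw [comm_mul_left (hcomm (φ b) hb'W (φ w₀)), hA, mul_one, hφc]
    have e3 := K1 (w₀ * φ w₀) huW b hbW (φ b) hb'W (by rw [e1]; exact hc1) (by rw [e2]; exact hφc1)
    rw [e1, e2] at e3
    exact hφcc e3.symm
  have hne32 : Nat.card (bigW X) ≠ 32 := by
    intro h32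
    have : Fact (Nat.Prime 3) := ⟨Nat.prime_three⟩
    have ho : orderOf φ ≠ 0 := (orderOf_pos φ).ne'
    obtain ⟨e, m, hm3, hom⟩ := Nat.exists_eq_pow_mul_and_not_dvd ho 3 (by norm_num)
    obtain ⟨q, r, hmqr, hr⟩ : ∃ q r, m = 3 * q + r ∧ (r = 1 ∨ r = 2) := by
      refine ⟨m / 3, m % 3, (Nat.div_add_mod m 3).symm, ?_⟩
      have : m % 3 ≠ 0 := fun h0 => hm3 (Nat.dvd_of_mod_eq_zero h0)
      omega
    obtain ⟨ψ, hψdef⟩ : ∃ ψ, ψ = φ ^ m := ⟨_, rfl⟩
    have hψ3 : ψ ^ (3 ^ e) = 1 := by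
      rw [hψdef, ← pow_mul, mul_comm, ← hom, pow_orderOf_eq_one]
    have hP : IsPGroup 3 ↥(Subgroup.zpowers ψ) := by
      intro g
      refine ⟨e, ?_⟩
      obtain ⟨i, hi⟩ := Subgroup.mem_zpowers_iff.mp g.2
      apply Subtype.ext
      rw [Subgroup.coe_pow, Subgroup.coe_one, ← hi, ← zpow_natCast, ← zpow_mul, mul_comm,
        zpow_mul, zpow_natCast, hψ3, one_zpow]
    have hpow3 : ∀ q : ℕ, ∀ v ∈ omZ X, (φ ^ (3 * q)) v = v := by
      intro q
      induction q with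
      | zero => intro v hv; simp
      | succ q ih =>
        intro v hv
        have e1 : φ ^ (3 * (q + 1)) = φ ^ (3 * q) * φ ^ 3 := by rw [mul_add, mul_one, pow_add]
        have e2 : (φ ^ 3) v = φ (φ (φ v)) := by
          rw [pow_succ, pow_succ, pow_one, MulAut.mul_apply, MulAut.mul_apply]
        rw [e1, MulAut.mul_apply, e2, h.phi3 hv]
        exact ih v hv
    have hψV : ∀ v ∈ omZ X, v ≠ 1 → ψ v ≠ v := by
      intro v hv hv1
      have e1 : ψ v = (φ ^ r) v := by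
        rw [hψdef, hmqr, pow_add, MulAut.mul_apply]
        exact hpow3 q _ (by
          rcases hr with rfl | rfl
          · rw [pow_one]; exact omZ_aut φ hv
          · rw [pow_two, MulAut.mul_apply]; exact omZ_aut φ (omZ_aut φ hv))
      rw [e1]
      rcases hr with rfl | rfl
      · rw [pow_one]; exact h.φV v hv hv1
      · rw [pow_two, MulAut.mul_apply]; exact h.phi2_ne hv hv1
    -- the action on `W ∖ V`
    let Ω : Set X := (bigW X : Set X) \ (omZ X : Set X)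
    letI act : MulAction (MulAut X) ↥Ω :=
      { smul := fun g w => ⟨g w.1, bigW_aut g w.2.1, fun hc => w.2.2 (by
            have := omZ_aut g⁻¹ hc
            simpa using this)⟩
        one_smul := fun w => Subtype.ext rfl
        mul_smul := fun g g' w => Subtype.ext rfl }
    have hΩ : Nat.card ↥Ω = 28 := by
      rw [Nat.card_coe_set_eq]
      have h1 := Set.ncard_sdiff_add_ncard_of_subset (s := (omZ X : Set X)) (t := (bigW X : Set X))
        (fun v hv => hVW hv)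
      have h2 : (omZ X : Set X).ncard = 4 := by
        rw [← Nat.card_coe_set_eq]; exact hVc
      have h3 : (bigW X : Set X).ncard = 32 := by
        rw [← Nat.card_coe_set_eq]; exact h32
      show ((bigW X : Set X) \ (omZ X : Set X)).ncard = 28
      omega
    obtain ⟨w, hw⟩ := hP.nonempty_fixed_point_of_prime_not_dvd_card ↥Ω (by rw [hΩ]; norm_num)
    have hfix : ψ w.1 = w.1 := by
      have := hw ⟨ψ, Subgroup.mem_zpowers ψ⟩
      exact congrArg Subtype.val this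
    have hwW : w.1 ∈ bigW X := w.2.1
    have hwV : w.1 ∉ omZ X := w.2.2
    have hsV : w.1 * w.1 ∈ omZ X := (mem_bigW.mp hwW).1
    have hs1 : w.1 * w.1 = 1 := by
      by_contra hne
      apply hψV _ hsV hne
      rw [map_mul, hfix]
    exact hwV (hinvW _ hwW hs1)
  -- conclusion
  have hj6 : j ≤ 6 := by
    by_contra hc
    push Not at hc
    have : 2 ^ 7 ≤ 2 ^ j := Nat.pow_le_pow_right (by norm_num) hc
    rw [hj] at hle
    norm_num at this
    omega
  rw [hj] at hdvd hne4 hne8 hne16 hne32 ⊢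
  interval_cases j <;> simp_all
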